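import Mathlib
import Cfsg.Agent.Lib.GS.FrobeniusCount
import Cfsg.Agent.Lib.Transfer.Basic
import Cfsg.Agent.Lib.Transfer.Hall

/-!
If `p` is the least prime divisor of `|G|` and no class size is divisible by `p ^ 2`, then a Sylow
`p`-subgroup controls the fusion of its own elements.

The proof counts `|G| = ∑ #(p'-elements of C(u))` over the `p`-elements `u`.
-/

set_option autoImplicit false

namespace Cfsg.Agent.Lib.ClassSize.SquareFreeFusion

open Subgroup
open scoped commutatorElement

/-- Fixed points of a map whose `q`-th power is the identity. -/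
theorem fixed_modEq {α : Type*} [Finite α] (f : α → α) (q : ℕ) [Fact q.Prime]
    (hf : f^[q] = id) : Nat.card α ≡ Nat.card {a : α // f a = a} [MOD q] := by
  classical
  have := Fintype.ofFinite α
  let F : Function.End α := f
  have hf' : F ^ q ^ 1 = 1 := by
    rw [pow_one]
    have hpow : ∀ n : ℕ, F ^ n = f^[n] := fun n => by
      induction n with
      | zero => rfl
      | succ n ih =>
        rw [pow_succ, ih, Function.iterate_succ]
        rfl
    rw [hpow, hf]
    rfl
  have h := Equiv.Perm.card_fixedPoints_modEq (f := F) hf'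
  rw [← Nat.card_eq_fintype_card, ← Nat.card_eq_fintype_card] at h
  exact h

variable {G : Type*} [Group G] [Finite G] {p : ℕ} [hp : Fact p.Prime]

/-- The number of solutions of `k ^ m = 1` in the centralizer of `u`. -/
noncomputable def roots (m : ℕ) (u : G) : ℕ :=
  Nat.card {k : centralizer ({u} : Set G) // k ^ m = 1}

theorem coprime_card_index (T : Sylow p G) :
    Nat.Coprime (Nat.card (T : Subgroup G)) (T : Subgroup G).index := by
  obtain ⟨a, ha⟩ := IsPGroup.iff_card.1 T.2
  rw [ha]
  exact Nat.Coprime.pow_left _ (hp.out.coprime_iff_not_dvd.2 T.not_dvd_index)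

theorem card_eq_sigma {R S : ℕ} (hcop : R.Coprime S) (hRS : R * S = Nat.card G) :
    Nat.card G =
      Nat.card (Σ h : {h : G // h ^ R = 1}, {k : centralizer ({(h : G)} : Set G) // k ^ S = 1}) := by
  obtain ⟨e, he1, he0⟩ := Nat.chineseRemainder hcop 1 0
  obtain ⟨f, hf0, hf1⟩ := Nat.chineseRemainder hcop 0 1
  have h := GS.FrobeniusCount.count_decomp (G := G) hcop he1 he0 hf0 hf1 (fun _ => True)
  have hL : Nat.card {g : G // g ^ (R * S) = 1 ∧ True} = Nat.card G :=
    Nat.card_congr (Equiv.subtypeUnivEquiv fun g => ⟨by rw [hRS]; exact pow_card_eq_one', trivial⟩)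
  rw [← hL, h]
  exact Nat.card_congr (Equiv.sigmaCongr (Equiv.subtypeEquivRight fun _ => by simp)
    (fun _ => Equiv.refl _))

theorem pow_le_card_roots {b S : ℕ} (h : p ^ b ∣ Nat.card G) (hS : p ^ b ∣ S) :
    p ^ b ≤ Nat.card {k : G // k ^ S = 1} := by
  obtain ⟨K, hK⟩ := Sylow.exists_subgroup_card_pow_prime p h
  rw [← hK]
  refine Nat.card_le_card_of_injective (fun k : K => (⟨(k : G), ?_⟩ : {k : G // k ^ S = 1}))
    (fun a b hab => Subtype.ext (congrArg (fun z : {k : G // k ^ S = 1} => (z : G)) hab))
  rw [← orderOf_dvd_iff_pow_eq_one, orderOf_coe]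
  exact (orderOf_dvd_natCard k).trans (hK ▸ hS)

/-- The basic lower bound for `|G|`. -/
theorem lower (T : Sylow p G) (b : ℕ)
    (hb : ∀ h : G, h ^ (T : Subgroup G).index = 1 →
      p ^ b ∣ Nat.card (centralizer ({h} : Set G)))
    (hba : p ^ b ∣ Nat.card (T : Subgroup G)) :
    Nat.card (T : Subgroup G) +
        Nat.card {h : G // h ^ (T : Subgroup G).index = 1} * p ^ b ≤ Nat.card G + p ^ b := by
  classical
  have := Fintype.ofFinite {h : G // h ^ (T : Subgroup G).index = 1}
  set A := Nat.card (T : Subgroup G) with hA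
  set m := (T : Subgroup G).index
  have heq := card_eq_sigma (G := G) (coprime_card_index T).symm
    (by rw [mul_comm]; exact card_mul_index _)
  rw [Nat.card_sigma] at heq
  simp only [← hA] at heq
  let one' : {h : G // h ^ m = 1} := ⟨1, one_pow _⟩
  have h1 : A ≤ Nat.card {k : centralizer ({((one' : {h : G // h ^ m = 1}) : G)} : Set G) // k ^ A = 1} := by
    obtain ⟨a, ha⟩ := IsPGroup.iff_card.1 T.2
    rw [hA, ha]
    refine pow_le_card_roots ?_ dvd_rfl
    have htop : centralizer ({(1 : G)} : Set G) = ⊤ := by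
      rw [eq_top_iff]
      intro x _
      rw [mem_centralizer_singleton_iff]
      simp
    show p ^ a ∣ Nat.card (centralizer ({(1 : G)} : Set G))
    rw [htop, card_top, ← ha]
    exact card_subgroup_dvd_card _
  have hother : ∀ h : {h : G // h ^ m = 1},
      p ^ b ≤ Nat.card {k : centralizer ({(h : G)} : Set G) // k ^ A = 1} :=
    fun h => pow_le_card_roots (hb h h.2) hba
  rw [← Finset.add_sum_erase Finset.univ _ (Finset.mem_univ one')] at heq
  have hsum : (Finset.univ.erase one').card * p ^ b ≤ ∑ h ∈ Finset.univ.erase one',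
      Nat.card {k : centralizer ({(h : G)} : Set G) // k ^ A = 1} := by
    have := Finset.card_nsmul_le_sum (Finset.univ.erase one')
      (fun h => Nat.card {k : centralizer ({(h : G)} : Set G) // k ^ A = 1}) (p ^ b)
      (fun h _ => hother h)
    simpa using this
  rw [Finset.card_erase_of_mem (Finset.mem_univ one'), Finset.card_univ,
    ← Nat.card_eq_fintype_card] at hsum
  have : Nonempty {h : G // h ^ m = 1} := ⟨one'⟩
  have hpos : 0 < Nat.card {h : G // h ^ m = 1} := Nat.card_pos
  obtain ⟨r, hr⟩ : ∃ r, Nat.card {h : G // h ^ m = 1} = r + 1 := ⟨_, (Nat.succ_pred_eq_of_pos hpos).symm⟩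
  rw [hr] at hsum ⊢
  rw [Nat.add_sub_cancel] at hsum
  rw [add_mul, one_mul]
  omega

theorem index_dvd_card_roots (T : Sylow p G) :
    (T : Subgroup G).index ∣ Nat.card {h : G // h ^ (T : Subgroup G).index = 1} :=
  GS.FrobeniusCount.dvd_card_roots _ G rfl _ (index_dvd_card _)

theorem index_le_card_roots (T : Sylow p G) :
    (T : Subgroup G).index ≤ Nat.card {h : G // h ^ (T : Subgroup G).index = 1} :=
  have : Nonempty {h : G // h ^ (T : Subgroup G).index = 1} := ⟨⟨1, one_pow _⟩⟩
  Nat.le_of_dvd Nat.card_pos (index_dvd_card_roots T)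

theorem card_roots_eq_of_full (T : Sylow p G)
    (h : ∀ x : G, x ^ (T : Subgroup G).index = 1 →
      Nat.card (T : Subgroup G) ∣ Nat.card (centralizer ({x} : Set G))) :
    Nat.card {h : G // h ^ (T : Subgroup G).index = 1} = (T : Subgroup G).index := by
  obtain ⟨a, ha⟩ := IsPGroup.iff_card.1 T.2
  have h1 := lower T a (fun x hx => ha ▸ h x hx) (ha ▸ dvd_rfl)
  have h2 := card_mul_index (T : Subgroup G)
  refine le_antisymm ?_ (index_le_card_roots T)
  refine Nat.le_of_mul_le_mul_right ?_ (pow_pos hp.out.pos a)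
  rw [ha] at h1 h2
  rw [mul_comm (T : Subgroup G).index]
  omega

theorem card_roots_lt (T : Sylow p G)
    (h : ∀ x : G, x ^ (T : Subgroup G).index = 1 →
      Nat.card (T : Subgroup G) ∣ p * Nat.card (centralizer ({x} : Set G))) :
    Nat.card {h : G // h ^ (T : Subgroup G).index = 1} < p * (T : Subgroup G).index := by
  obtain ⟨a, ha⟩ := IsPGroup.iff_card.1 T.2
  have h2 := card_mul_index (T : Subgroup G)
  have hm : 0 < (T : Subgroup G).index := Nat.pos_of_ne_zero index_ne_zero_of_finite
  have hp2 := hp.out.two_le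
  rcases a with _ | b
  · rw [ha, pow_zero, one_mul] at h2
    refine lt_of_le_of_lt (Finite.card_subtype_le _) ?_
    rw [← h2]
    exact lt_mul_left hm hp.out.one_lt
  · have h1 := lower T b (fun x hx => by
      have := h x hx
      rw [ha, pow_succ'] at this
      exact Nat.dvd_of_mul_dvd_mul_left hp.out.pos this) (ha ▸ pow_dvd_pow p b.le_succ)
    rw [ha, pow_succ'] at h1 h2
    refine Nat.lt_of_mul_lt_mul_right (a := p ^ b) ?_
    have hpb : 0 < p ^ b := pow_pos hp.out.pos b
    have : 2 * p ^ b ≤ p * p ^ b := Nat.mul_le_mul_right _ hp2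
    rw [mul_right_comm p (T : Subgroup G).index]
    omega

/-- `N(T) = T C(T)` gives `#(p'-elements) ≡ |G : T|` modulo `p`. -/
theorem card_roots_modEq (T : Sylow p G)
    (hN : ∀ x ∈ normalizer ((T : Subgroup G) : Set G),
      ∃ t ∈ (T : Subgroup G), t⁻¹ * x ∈ centralizer ((T : Subgroup G) : Set G)) :
    Nat.card {h : G // h ^ (T : Subgroup G).index = 1} ≡ (T : Subgroup G).index [MOD p] := by
  classical
  set m := (T : Subgroup G).index with hm
  set A := Nat.card (T : Subgroup G) with hA
  set N := normalizer ((T : Subgroup G) : Set G) with hNdef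
  letI act : MulAction ↥(T : Subgroup G) {h : G // h ^ m = 1} :=
    { smul := fun t h => ⟨(t : G) * (h : G) * (t : G)⁻¹, by rw [conj_pow, h.2]; group⟩
      one_smul := fun h => Subtype.ext (by show (1 : G) * _ * (1 : G)⁻¹ = _; group)
      mul_smul := fun s t h => Subtype.ext (by
        show ((s * t : ↥(T : Subgroup G)) : G) * _ * ((s * t : ↥(T : Subgroup G)) : G)⁻¹ = (s : G) * ((t : G) * _ * (t : G)⁻¹) * (s : G)⁻¹
        push_cast
        group) }
  refine (T.2.card_modEq_card_fixedPoints {h : G // h ^ m = 1}).trans ?_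
  have hfix : ∀ h : {h : G // h ^ m = 1},
      h ∈ MulAction.fixedPoints ↥(T : Subgroup G) {h : G // h ^ m = 1} ↔
        (h : G) ∈ centralizer ((T : Subgroup G) : Set G) := by
    intro h
    rw [MulAction.mem_fixedPoints, mem_centralizer_iff]
    constructor
    · intro hh t ht
      have h1 : t * (h : G) * t⁻¹ = h := congrArg Subtype.val (hh ⟨t, ht⟩)
      exact mul_inv_eq_iff_eq_mul.1 h1
    · intro hh t
      refine Subtype.ext ?_
      show (t : G) * (h : G) * (t : G)⁻¹ = h
      exact mul_inv_eq_iff_eq_mul.2 (hh t t.2)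
  have hTN : (T : Subgroup G) ≤ N := le_normalizer
  have hcop : Nat.Coprime A m := coprime_card_index T
  have hcard : A * m = Nat.card G := card_mul_index _
  obtain ⟨e, he1, he0⟩ := Nat.chineseRemainder hcop 1 0
  obtain ⟨f, hf0, hf1⟩ := Nat.chineseRemainder hcop 0 1
  have hCN : centralizer ((T : Subgroup G) : Set G) ≤ N :=
    Subgroup.centralizer_le_normalizer _
  have hbij : Nat.card (MulAction.fixedPoints ↥(T : Subgroup G) {h : G // h ^ m = 1}) =
      ((T : Subgroup G).subgroupOf N).index := by
    rw [index_eq_card]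
    refine Nat.card_eq_of_bijective (fun h => QuotientGroup.mk
      (⟨((h : {h : G // h ^ m = 1}) : G), hCN ((hfix _).1 h.2)⟩ : N)) ⟨?_, ?_⟩
    · rintro ⟨⟨g, hg⟩, hgc⟩ ⟨⟨g', hg'⟩, hgc'⟩ heq
      have hmem := QuotientGroup.eq.1 heq
      rw [mem_subgroupOf] at hmem
      change g⁻¹ * g' ∈ (T : Subgroup G) at hmem
      have hgT := (hfix _).1 hgc
      rw [mem_centralizer_iff] at hgT
      have hc : Commute g (g⁻¹ * g') := (hgT _ hmem).symm
      have h1 : (g⁻¹ * g') ^ m = 1 := by
        have h := hc.mul_pow m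
        rw [mul_inv_cancel_left, hg', hg, one_mul] at h
        exact h.symm
      have h2 : (g⁻¹ * g') ^ A = 1 := by
        have := pow_card_eq_one' (x := (⟨_, hmem⟩ : ↥(T : Subgroup G)))
        exact congrArg Subtype.val this
      have h3 : g⁻¹ * g' = 1 := orderOf_eq_one_iff.1 (Nat.eq_one_of_dvd_coprimes hcop
        (orderOf_dvd_iff_pow_eq_one.2 h2) (orderOf_dvd_iff_pow_eq_one.2 h1))
      exact Subtype.ext (Subtype.ext (inv_mul_eq_one.1 h3))
    · intro q
      obtain ⟨⟨x, hx⟩, rfl⟩ := QuotientGroup.mk_surjective q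
      obtain ⟨t, ht, hc⟩ := hN x hx
      set c := t⁻¹ * x with hcdef
      have hcG : c ^ (A * m) = 1 := by rw [hcard]; exact pow_card_eq_one'
      have hsplit : c ^ e * c ^ f = c := by
        rw [← pow_add]
        conv_rhs => rw [← pow_one c]
        rw [pow_eq_pow_mod _ hcG, pow_eq_pow_mod 1 hcG]
        congr 1
        exact (Nat.modEq_and_modEq_iff_modEq_mul hcop).1
          ⟨by simpa using he1.add hf0, by simpa using he0.add hf1⟩
      have hfm : (c ^ f) ^ m = 1 := by
        rw [← pow_mul, ← orderOf_dvd_iff_pow_eq_one]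
        exact (orderOf_dvd_of_pow_eq_one hcG).trans
          (Nat.mul_dvd_mul_right (Nat.modEq_zero_iff_dvd.1 hf0) m)
      have hce : (c ^ e) ∈ (T : Subgroup G) := by
        have hpg : IsPGroup p (zpowers (c ^ e)) := by
          obtain ⟨a, ha⟩ := IsPGroup.iff_card.1 T.2
          have h4 : orderOf (c ^ e) ∣ p ^ a := by
            rw [← ha, orderOf_dvd_iff_pow_eq_one, ← pow_mul, ← orderOf_dvd_iff_pow_eq_one, mul_comm]
            exact (orderOf_dvd_of_pow_eq_one hcG).trans
              (Nat.mul_dvd_mul_left A (Nat.modEq_zero_iff_dvd.1 he0))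
          obtain ⟨i, -, hi⟩ := (Nat.dvd_prime_pow hp.out).1 h4
          exact IsPGroup.of_card (n := i) (by rw [Nat.card_zpowers, hi])
        have hle : zpowers (c ^ e) ≤ N := zpowers_le.2 (hCN (pow_mem hc e))
        have hsup := IsPGroup.to_sup_of_normal_left' T.2 hpg hle
        have := T.3 hsup le_sup_left
        exact this ▸ mem_sup_right (mem_zpowers _)
      have hfc : c ^ f ∈ centralizer ((T : Subgroup G) : Set G) := pow_mem hc f
      refine ⟨⟨⟨c ^ f, hfm⟩, (hfix _).2 hfc⟩, QuotientGroup.eq.2 ?_⟩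
      rw [mem_subgroupOf]
      show (c ^ f)⁻¹ * x ∈ (T : Subgroup G)
      have hx' : x = t * c := by rw [hcdef]; group
      rw [mem_centralizer_iff] at hfc
      have h5 : (c ^ f)⁻¹ * x = t * c ^ e := by
        have hte : t * c ^ e * c ^ f = c ^ f * (t * c ^ e) := hfc _ (mul_mem ht hce)
        rw [inv_mul_eq_iff_eq_mul, ← hte, mul_assoc, hsplit, hx']
      rw [h5]
      exact mul_mem ht hce
  rw [hbij]
  have h1 : N.index ≡ 1 [MOD p] := by
    rw [hNdef, T.coe_coe, ← T.card_eq_index_normalizer]
    exact card_sylow_modEq_one p G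
  have h2 : ((T : Subgroup G).subgroupOf N).index * N.index = m := relIndex_mul_index hTN
  calc ((T : Subgroup G).subgroupOf N).index = ((T : Subgroup G).subgroupOf N).index * 1 := (mul_one _).symm
    _ ≡ ((T : Subgroup G).subgroupOf N).index * N.index [MOD p] := (h1.symm.mul_left _)
    _ = m := h2

theorem card_roots_eq (T : Sylow p G)
    (h : ∀ x : G, x ^ (T : Subgroup G).index = 1 →
      Nat.card (T : Subgroup G) ∣ p * Nat.card (centralizer ({x} : Set G)))
    (hN : ∀ x ∈ normalizer ((T : Subgroup G) : Set G),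
      ∃ t ∈ (T : Subgroup G), t⁻¹ * x ∈ centralizer ((T : Subgroup G) : Set G)) :
    Nat.card {h : G // h ^ (T : Subgroup G).index = 1} = (T : Subgroup G).index := by
  have hlt := card_roots_lt T h
  have hmod := card_roots_modEq T hN
  have hle := index_le_card_roots T
  obtain ⟨k, hk⟩ := index_dvd_card_roots T
  rw [hk] at hlt hmod hle ⊢
  rw [mul_comm p] at hlt
  have hkp : k < p := Nat.lt_of_mul_lt_mul_left hlt
  have hgcd : Nat.gcd p (T : Subgroup G).index = 1 := hp.out.coprime_iff_not_dvd.2 T.not_dvd_index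
  have h1 : k ≡ 1 [MOD p] := by
    refine Nat.ModEq.cancel_right_of_coprime hgcd ?_
    rw [one_mul, mul_comm]
    exact hmod
  have hk1 : k = 1 := Nat.ModEq.eq_of_lt_of_lt h1 hkp hp.out.one_lt
  rw [hk1, mul_one]

section Main

variable (T : Sylow p G)

/-- The class weight of `u`: the `p`-part of its class size. -/
noncomputable def wt (u : G) : ℕ :=
  Nat.card (T : Subgroup G) / p ^ (Nat.card (centralizer ({u} : Set G))).factorization p

theorem wt_mul (u : G) :
    wt T u * p ^ (Nat.card (centralizer ({u} : Set G))).factorization p =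
      Nat.card (T : Subgroup G) := by
  refine Nat.div_mul_cancel ?_
  rw [T.card_eq_multiplicity]
  exact pow_dvd_pow p ((Nat.factorization_le_iff_dvd Nat.card_pos.ne' Nat.card_pos.ne').2
    (card_subgroup_dvd_card _) p)

/-- The weighted number attached to the class of `u`. -/
noncomputable def val (u : G) : ℕ :=
  (centralizer ({u} : Set G)).index * roots (T : Subgroup G).index u / (T : Subgroup G).index

theorem index_centralizer_conj (g u : G) :
    (centralizer ({g * u * g⁻¹} : Set G)).index = (centralizer ({u} : Set G)).index := by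
  have : centralizer ({g * u * g⁻¹} : Set G) =
      (centralizer ({u} : Set G)).map (MulAut.conj g).toMonoidHom := by
    ext x
    rw [Subgroup.mem_map_equiv, mem_centralizer_singleton_iff, mem_centralizer_singleton_iff,
      MulAut.conj_symm_apply]
    constructor
    · intro hx
      calc g⁻¹ * x * g * u = g⁻¹ * (x * (g * u * g⁻¹)) * g := by group
        _ = g⁻¹ * (g * u * g⁻¹ * x) * g := by rw [hx]
        _ = u * (g⁻¹ * x * g) := by group
    · intro hx
      calc x * (g * u * g⁻¹) = g * (g⁻¹ * x * g * u) * g⁻¹ := by group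
        _ = g * (u * (g⁻¹ * x * g)) * g⁻¹ := by rw [hx]
        _ = g * u * g⁻¹ * x := by group
  rw [this]
  exact index_map_equiv _ (MulAut.conj g)

theorem wt_conj (g u : G) : wt T (g * u * g⁻¹) = wt T u := by
  have h1 := card_mul_index (centralizer ({g * u * g⁻¹} : Set G))
  have h2 := card_mul_index (centralizer ({u} : Set G))
  rw [index_centralizer_conj, ← h2] at h1
  have h := Nat.eq_of_mul_eq_mul_right (Nat.pos_of_ne_zero index_ne_zero_of_finite) h1
  rw [wt, wt, h]

theorem val_conj (g u : G) : val T (g * u * g⁻¹) = val T u := by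
  rw [val, val, index_centralizer_conj, roots, roots, GS.FrobeniusCount.card_centralizer_roots_conj]

theorem index_mul_roots (u : G) (U : Sylow p (centralizer ({u} : Set G))) :
    (centralizer ({u} : Set G)).index * (U : Subgroup (centralizer ({u} : Set G))).index =
      wt T u * (T : Subgroup G).index := by
  have h1 := card_mul_index (U : Subgroup (centralizer ({u} : Set G)))
  rw [U.card_eq_multiplicity] at h1
  have h2 := card_mul_index (centralizer ({u} : Set G))
  have h3 := card_mul_index (T : Subgroup G)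
  have h4 := wt_mul T u
  refine Nat.eq_of_mul_eq_mul_left (pow_pos hp.out.pos
    ((Nat.card (centralizer ({u} : Set G))).factorization p)) ?_
  calc _ = (centralizer ({u} : Set G)).index *
        (p ^ (Nat.card (centralizer ({u} : Set G))).factorization p *
          (U : Subgroup (centralizer ({u} : Set G))).index) := by ring
    _ = Nat.card G := by rw [h1, mul_comm, h2]
    _ = wt T u * p ^ (Nat.card (centralizer ({u} : Set G))).factorization p *
          (T : Subgroup G).index := by rw [h4, h3]
    _ = _ := by ring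

theorem roots_eq (u : G) (U : Sylow p (centralizer ({u} : Set G))) :
    roots (T : Subgroup G).index u = Nat.card {k : centralizer ({u} : Set G) //
      k ^ (U : Subgroup (centralizer ({u} : Set G))).index = 1} := by
  refine Nat.card_congr (Equiv.subtypeEquivRight fun k => ?_)
  have hUm := index_mul_roots T u U
  have hkC : orderOf k ∣ Nat.card (centralizer ({u} : Set G)) := orderOf_dvd_natCard k
  rw [← card_mul_index (U : Subgroup (centralizer ({u} : Set G))), U.card_eq_multiplicity] at hkC
  constructor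
  · intro hk
    have hd := orderOf_dvd_of_pow_eq_one hk
    have hc : (orderOf k).Coprime (p ^ (Nat.card (centralizer ({u} : Set G))).factorization p) :=
      Nat.Coprime.pow_right _ (Nat.Coprime.coprime_dvd_left hd
        (hp.out.coprime_iff_not_dvd.2 T.not_dvd_index).symm)
    exact orderOf_dvd_iff_pow_eq_one.1 (hc.dvd_of_dvd_mul_left hkC)
  · intro hk
    have hd := orderOf_dvd_of_pow_eq_one hk
    have hdG : orderOf k ∣ Nat.card (T : Subgroup G) * (T : Subgroup G).index := by
      rw [card_mul_index, ← orderOf_coe]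
      exact orderOf_dvd_natCard _
    have hc : (orderOf k).Coprime (Nat.card (T : Subgroup G)) := by
      rw [T.card_eq_multiplicity]
      exact Nat.Coprime.pow_right _ (Nat.Coprime.coprime_dvd_left hd
        (hp.out.coprime_iff_not_dvd.2 U.not_dvd_index).symm)
    exact orderOf_dvd_iff_pow_eq_one.1 (hc.dvd_of_dvd_mul_left hdG)

variable (hG : ∀ g : G, Nat.card (T : Subgroup G) ∣ p * Nat.card (centralizer ({g} : Set G)))

include hG in
theorem inner_hyp (u : G) (hu : u ^ Nat.card (T : Subgroup G) = 1)
    (x : centralizer ({u} : Set G)) (hx : (x : G) ^ (T : Subgroup G).index = 1) :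
    Nat.card (T : Subgroup G) ∣
      p * Nat.card (centralizer ({x} : Set (centralizer ({u} : Set G)))) := by
  set A := Nat.card (T : Subgroup G)
  set m := (T : Subgroup G).index
  obtain ⟨e, he1, he0⟩ := Nat.chineseRemainder (coprime_card_index T) 1 0
  have hc : Commute u (x : G) := (mem_centralizer_singleton_iff.1 x.2).symm
  have hpow : (u * (x : G)) ^ e = u := by
    rw [hc.mul_pow, pow_eq_pow_mod e hu, he1, ← pow_eq_pow_mod 1 hu, pow_one,
      pow_eq_pow_mod e hx, he0, ← pow_eq_pow_mod 0 hx, pow_zero, mul_one]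
  refine (hG (u * (x : G))).trans (Nat.mul_dvd_mul_left p ?_)
  have hmem : ∀ y ∈ centralizer ({u * (x : G)} : Set G),
      y ∈ centralizer ({u} : Set G) ∧ y * (x : G) = (x : G) * y := by
    intro y hy
    have h1 : Commute y (u * (x : G)) := mem_centralizer_singleton_iff.1 hy
    have h2 : Commute y u := hpow ▸ h1.pow_right e
    refine ⟨mem_centralizer_singleton_iff.2 h2.eq, ?_⟩
    have h3 : Commute y (u⁻¹ * (u * (x : G))) := (h2.inv_right).mul_right h1
    rw [inv_mul_cancel_left] at h3
    exact h3.eq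
  let φ : centralizer ({u * (x : G)} : Set G) →*
      centralizer ({x} : Set (centralizer ({u} : Set G))) :=
    { toFun := fun y => ⟨⟨(y : G), (hmem y y.2).1⟩,
        mem_centralizer_singleton_iff.2 (Subtype.ext (hmem y y.2).2)⟩
      map_one' := rfl
      map_mul' := fun _ _ => rfl }
  exact card_dvd_of_injective φ fun a b hab =>
    Subtype.ext (congrArg (fun z => ((z.1 : centralizer ({u} : Set G)) : G)) hab)

include hG in
theorem val_bounds (u : G) (hu : u ^ Nat.card (T : Subgroup G) = 1) :
    (centralizer ({u} : Set G)).index * roots (T : Subgroup G).index u =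
        (T : Subgroup G).index * val T u ∧ val T u + wt T u ≤ p * wt T u ∧
      ((∀ (T' : Sylow p G), ∀ x ∈ normalizer ((T' : Subgroup G) : Set G),
          ∃ t ∈ (T' : Subgroup G), t⁻¹ * x ∈ centralizer ((T' : Subgroup G) : Set G)) →
        val T u = wt T u) := by
  obtain ⟨U⟩ : Nonempty (Sylow p (centralizer ({u} : Set G))) := inferInstance
  set C := centralizer ({u} : Set G)
  set mH := (U : Subgroup C).index with hmH
  have hm : 0 < (T : Subgroup G).index := Nat.pos_of_ne_zero index_ne_zero_of_finite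
  have hUm : C.index * mH = wt T u * (T : Subgroup G).index := index_mul_roots T u U
  obtain ⟨k, hk⟩ := index_dvd_card_roots U
  rw [← hmH] at hk
  have hrk : roots (T : Subgroup G).index u = mH * k := (roots_eq T u U).trans hk
  have hval : val T u = wt T u * k := by
    rw [val, hrk, ← mul_assoc, hUm, mul_right_comm, Nat.mul_div_cancel _ hm]
  refine ⟨by rw [hval, hrk, ← mul_assoc, hUm]; ring, ?_, ?_⟩
  all_goals
    have hUT : Nat.card (U : Subgroup C) ∣ Nat.card (T : Subgroup G) := by
      rw [U.card_eq_multiplicity, T.card_eq_multiplicity]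
      exact pow_dvd_pow p ((Nat.factorization_le_iff_dvd Nat.card_pos.ne' Nat.card_pos.ne').2
        (card_subgroup_dvd_card C) p)
    have hroot : ∀ x : C, x ^ mH = 1 → (x : G) ^ (T : Subgroup G).index = 1 := fun x hx => by
      have := ((Equiv.subtypeEquivRight (fun _ => Iff.rfl) :
        {k : C // k ^ mH = 1} ≃ {k : C // k ^ mH = 1}) ⟨x, hx⟩)
      have hdG : orderOf x ∣ Nat.card (T : Subgroup G) * (T : Subgroup G).index := by
        rw [card_mul_index, ← orderOf_coe]
        exact orderOf_dvd_natCard _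
      have hc : (orderOf x).Coprime (Nat.card (T : Subgroup G)) := by
        rw [T.card_eq_multiplicity]
        exact Nat.Coprime.pow_right _ (Nat.Coprime.coprime_dvd_left (orderOf_dvd_of_pow_eq_one hx)
          (hp.out.coprime_iff_not_dvd.2 U.not_dvd_index).symm)
      rw [← orderOf_dvd_iff_pow_eq_one, orderOf_coe]
      exact hc.dvd_of_dvd_mul_left hdG
    have hin : ∀ x : C, x ^ mH = 1 →
        Nat.card (U : Subgroup C) ∣ p * Nat.card (centralizer ({x} : Set C)) :=
      fun x hx => hUT.trans (inner_hyp T hG u hu x (hroot x hx))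
  · have hlt := card_roots_lt U hin
    rw [← hmH, hk, mul_comm p] at hlt
    have hkp : k + 1 ≤ p := Nat.lt_of_mul_lt_mul_left hlt
    rw [hval, mul_comm p]
    calc wt T u * k + wt T u = wt T u * (k + 1) := by ring
      _ ≤ wt T u * p := Nat.mul_le_mul_left _ hkp
  · intro hN
    rw [hval]
    suffices Nat.card {k : C // k ^ mH = 1} = mH by
      rw [hk] at this
      have hmH0 : 0 < mH := Nat.pos_of_ne_zero index_ne_zero_of_finite
      have : k = 1 := by
        refine Nat.eq_of_mul_eq_mul_left hmH0 ?_
        rw [mul_one]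
        exact this
      rw [this, mul_one]
    by_cases hfull : Nat.card (U : Subgroup C) = Nat.card (T : Subgroup G)
    · refine card_roots_eq U hin fun x hx => ?_
      have hUG : Nat.card ((U : Subgroup C).map C.subtype) =
          p ^ (Nat.card G).factorization p := by
        rw [card_map_of_injective C.subtype_injective, hfull, T.card_eq_multiplicity]
      let T' : Sylow p G := Sylow.ofCard _ hUG
      have hT' : (T' : Subgroup G) = (U : Subgroup C).map C.subtype := rfl
      have hxN : (x : G) ∈ normalizer ((T' : Subgroup G) : Set G) := by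
        rw [mem_normalizer_iff] at hx ⊢
        intro y
        constructor
        · rintro ⟨z, hz, rfl⟩
          exact ⟨x * z * x⁻¹, (hx z).1 hz, rfl⟩
        · rintro ⟨z, hz, hzy⟩
          refine ⟨x⁻¹ * z * x, (hx _).2 ?_, ?_⟩
          · rw [show x * (x⁻¹ * z * x) * x⁻¹ = z by group]
            exact hz
          · simp only [coe_subtype, coe_mul, coe_inv] at hzy ⊢
            rw [hzy]; group
      obtain ⟨t, ht, hc⟩ := hN T' x hxN
      obtain ⟨t', ht', rfl⟩ := ht
      -- `u` lies in every Sylow `p`-subgroup of its centralizer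
      have huU : (⟨u, mem_centralizer_singleton_iff.2 rfl⟩ : C) ∈ (U : Subgroup C) := by
        set u' : C := ⟨u, mem_centralizer_singleton_iff.2 rfl⟩
        have hu' : IsPGroup p (zpowers u') := by
          have hd : orderOf u' ∣ Nat.card (T : Subgroup G) := by
            rw [← orderOf_coe]
            exact orderOf_dvd_of_pow_eq_one hu
          rw [T.card_eq_multiplicity] at hd
          obtain ⟨i, -, hi⟩ := (Nat.dvd_prime_pow hp.out).1 hd
          exact IsPGroup.of_card (n := i) (by rw [Nat.card_zpowers, hi])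
        have : (zpowers u').Normal := ⟨fun y hy g => by
          obtain ⟨i, rfl⟩ := mem_zpowers_iff.1 hy
          have hcm : Commute g u' := Subtype.ext (mem_centralizer_singleton_iff.1 g.2)
          rw [(hcm.zpow_right i).eq, mul_inv_cancel_right]
          exact hy⟩
        have hsup := IsPGroup.to_sup_of_normal_right U.2 hu'
        exact (U.3 hsup le_sup_left) ▸ mem_sup_right (mem_zpowers u')
      have hmemC : (t' : G)⁻¹ * (x : G) ∈ C := mul_mem (inv_mem t'.2) x.2
      refine ⟨t', ht', ?_⟩
      rw [mem_centralizer_iff] at hc ⊢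
      intro z hz
      exact Subtype.ext (hc z ⟨z, hz, rfl⟩)
    · refine card_roots_eq_of_full U fun x hx => ?_
      obtain ⟨i, hi⟩ := IsPGroup.iff_card.1 U.2
      obtain ⟨a, ha⟩ := IsPGroup.iff_card.1 T.2
      have hia : i < a := by
        rcases Nat.lt_or_ge i a with hlt | hge
        · exact hlt
        · refine absurd (Nat.dvd_antisymm hUT ?_) hfull
          rw [hi, ha]
          exact pow_dvd_pow p hge
      have h1 := inner_hyp T hG u hu x (hroot x hx)
      rw [ha] at h1
      rw [hi]
      refine Nat.dvd_of_mul_dvd_mul_left hp.out.pos (dvd_trans ?_ h1)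
      rw [← pow_succ']
      exact pow_dvd_pow p hia

open Classical in
/-- The `T`-class of `t`. -/
noncomputable def orb (t : G) [Fintype G] : Finset G :=
  (Finset.univ.filter fun s => s ∈ (T : Subgroup G)).image fun s => s * t * s⁻¹

theorem mem_orb [Fintype G] {t y : G} :
    y ∈ orb T t ↔ ∃ s ∈ (T : Subgroup G), s * t * s⁻¹ = y := by
  simp [orb]

theorem wt_le_card_orb [Fintype G] {t : G} (ht : t ∈ (T : Subgroup G)) :
    wt T t ≤ (orb T t).card := by
  classical
  set D := (T : Subgroup G) ⊓ centralizer ({t} : Set G)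
  have hfib : ∀ y ∈ (Finset.univ.filter fun s => s ∈ (T : Subgroup G)).image (fun s => s * t * s⁻¹),
      ((Finset.univ.filter fun s => s ∈ (T : Subgroup G)).filter fun s => s * t * s⁻¹ = y).card ≤
        Nat.card D := by
    intro y hy
    obtain ⟨s₀, hs₀, rfl⟩ := Finset.mem_image.1 hy
    simp only [Finset.mem_filter, Finset.mem_univ, true_and] at hs₀
    rw [Nat.card_eq_fintype_card, Fintype.card_subtype]
    refine Finset.card_le_card_of_injOn (fun s => s₀⁻¹ * s) ?_ (fun a _ b _ h => mul_left_cancel h)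
    intro s hs
    simp only [Finset.coe_filter, Finset.mem_filter, Finset.mem_univ, true_and, Set.mem_setOf_eq] at hs
    simp only [Finset.coe_filter, Finset.mem_univ, true_and, Set.mem_setOf_eq]
    refine Subgroup.mem_inf.2 ⟨mul_mem (inv_mem hs₀) hs.1, mem_centralizer_singleton_iff.2 ?_⟩
    calc s₀⁻¹ * s * t = s₀⁻¹ * (s * t * s⁻¹) * s := by group
      _ = t * (s₀⁻¹ * s) := by rw [hs.2]; group
  have h := Finset.card_le_mul_card_image (Finset.univ.filter fun s => s ∈ (T : Subgroup G)) _ hfib
  rw [← Fintype.card_subtype, ← Nat.card_eq_fintype_card] at h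
  set c := (Nat.card (centralizer ({t} : Set G))).factorization p
  have hD : Nat.card D ≤ p ^ c := by
    obtain ⟨i, hi⟩ := IsPGroup.iff_card.1 (T.2.to_le (inf_le_left : D ≤ _))
    rw [hi]
    refine Nat.pow_le_pow_right hp.out.pos ?_
    refine (hp.out.pow_dvd_iff_le_factorization Nat.card_pos.ne').1 ?_
    rw [← hi]
    exact card_dvd_of_le inf_le_right
  have hpc : 0 < p ^ c := pow_pos hp.out.pos c
  have hle : Nat.card (T : Subgroup G) ≤ p ^ c * (orb T t).card :=
    h.trans (Nat.mul_le_mul_right _ hD)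
  refine Nat.le_of_mul_le_mul_right ?_ hpc
  rw [wt_mul, mul_comm]
  exact hle

open Classical in
/-- The part of `T` in the class `c`. -/
noncomputable def inT (c : ConjClasses G) [Fintype G] : Finset G :=
  Finset.univ.filter fun y => y ∈ (T : Subgroup G) ∧ ConjClasses.mk y = c

open Classical in
/-- The classes meeting `T`. -/
noncomputable def classes [Fintype G] : Finset (ConjClasses G) :=
  (Finset.univ.filter fun y => y ∈ (T : Subgroup G)).image ConjClasses.mk

theorem orb_subset [Fintype G] {t : G} (ht : t ∈ (T : Subgroup G)) :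
    orb T t ⊆ inT T (ConjClasses.mk t) := by
  intro y hy
  obtain ⟨s, hs, rfl⟩ := (mem_orb T).1 hy
  simp only [inT, Finset.mem_filter, Finset.mem_univ, true_and]
  exact ⟨mul_mem (mul_mem hs ht) (inv_mem hs),
    ConjClasses.mk_eq_mk_iff_isConj.2 (isConj_iff.2 ⟨s⁻¹, by group⟩)⟩

theorem sum_card_inT [Fintype G] :
    ∑ c ∈ classes T, (inT T c).card = Nat.card (T : Subgroup G) := by
  classical
  rw [Nat.card_eq_fintype_card, Fintype.card_subtype,
    Finset.card_eq_sum_card_fiberwise (f := ConjClasses.mk) (t := classes T)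
      (fun x hx => Finset.mem_image_of_mem _ hx)]
  refine Finset.sum_congr rfl fun c _ => ?_
  congr 1
  ext y
  simp [inT]

theorem exists_rep [Fintype G] {c : ConjClasses G} (hc : c ∈ classes T) :
    ∃ t ∈ (T : Subgroup G), ConjClasses.mk t = c := by
  classical
  obtain ⟨t, ht, htc⟩ := Finset.mem_image.1 hc
  exact ⟨t, by simpa using ht, htc⟩

theorem wt_out {c : ConjClasses G} {t : G} (htc : ConjClasses.mk t = c) :
    wt T c.out = wt T t ∧ val T c.out = val T t := by
  have h : IsConj t c.out := by
    rw [← ConjClasses.mk_eq_mk_iff_isConj, htc]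
    exact (Quotient.out_eq c).symm
  obtain ⟨g, hg⟩ := isConj_iff.1 h
  rw [← hg, wt_conj, val_conj]
  exact ⟨rfl, rfl⟩

include hG in
theorem sum_val [Fintype G] : ∑ c ∈ classes T, val T c.out = Nat.card (T : Subgroup G) := by
  classical
  set A := Nat.card (T : Subgroup G) with hA
  set m := (T : Subgroup G).index
  have hm : 0 < m := Nat.pos_of_ne_zero index_ne_zero_of_finite
  have heq := card_eq_sigma (G := G) (coprime_card_index T) (card_mul_index _)
  rw [Nat.card_sigma] at heq
  replace heq : Nat.card G = ∑ a : {h : G // h ^ A = 1}, roots m (a : G) := heq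
  rw [← Finset.sum_subtype (Finset.univ.filter fun h : G => h ^ A = 1)
    (fun x => by simp) (fun h => roots m h)] at heq
  have hmaps : ∀ u ∈ Finset.univ.filter (fun h : G => h ^ A = 1), ConjClasses.mk u ∈ classes T := by
    intro u hu
    simp only [Finset.mem_filter, Finset.mem_univ, true_and] at hu
    have hd := orderOf_dvd_of_pow_eq_one hu
    obtain ⟨a, ha⟩ := IsPGroup.iff_card.1 T.2
    rw [hA, ha] at hd
    obtain ⟨i, -, hi⟩ := (Nat.dvd_prime_pow hp.out).1 hd
    obtain ⟨Q, hQ⟩ := (IsPGroup.of_card (n := i) (show Nat.card (zpowers u) = p ^ i by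
      rw [Nat.card_zpowers, hi])).exists_le_sylow
    obtain ⟨g, hg⟩ := MulAction.exists_smul_eq G Q T
    refine Finset.mem_image.2 ⟨g * u * g⁻¹, ?_, ConjClasses.mk_eq_mk_iff_isConj.2
      (isConj_iff.2 ⟨g⁻¹, by group⟩)⟩
    simp only [Finset.mem_filter, Finset.mem_univ, true_and]
    rw [← hg, Sylow.coe_subgroup_smul]
    exact Subgroup.smul_mem_pointwise_smul u (MulAut.conj g) _ (hQ (mem_zpowers u))
  rw [← Finset.sum_fiberwise_of_maps_to hmaps] at heq
  have hclass : ∀ c ∈ classes T,
      ∑ u ∈ (Finset.univ.filter fun h : G => h ^ A = 1).filter (fun u => ConjClasses.mk u = c),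
        roots m u = m * val T c.out := by
    intro c hc
    obtain ⟨t, ht, rfl⟩ := exists_rep T hc
    have htA : t ^ A = 1 := by
      have := pow_card_eq_one' (x := (⟨t, ht⟩ : ↥(T : Subgroup G)))
      exact congrArg Subtype.val this
    rw [(wt_out T rfl).2]
    have hset : (Finset.univ.filter fun h : G => h ^ A = 1).filter
        (fun u => ConjClasses.mk u = ConjClasses.mk t) = (ConjClasses.mk t).carrier.toFinset := by
      ext x
      simp only [Finset.mem_filter, Finset.mem_univ, true_and, Set.mem_toFinset,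
        ConjClasses.mem_carrier_iff_mk_eq]
      refine ⟨fun hx => hx.2, fun hx => ⟨?_, hx⟩⟩
      obtain ⟨g, hg⟩ := isConj_iff.1 (ConjClasses.mk_eq_mk_iff_isConj.1 hx).symm
      rw [← hg, conj_pow, htA]
      group
    rw [hset, Finset.sum_const_nat (m := roots m t) (fun x hx => ?_)]
    · rw [← Set.ncard_eq_toFinset_card', ← Nat.card_coe_set_eq,
        ← ConjAct.orbit_eq_carrier_conjClasses,
        Nat.card_congr (MulAction.orbitEquivQuotientStabilizer (ConjAct G) t),
        ← Subgroup.index_eq_card, ConjAct.stabilizer_eq_centralizer]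
      exact (val_bounds T hG t htA).1
    · rw [Set.mem_toFinset, ConjClasses.mem_carrier_iff_mk_eq] at hx
      obtain ⟨g, hg⟩ := isConj_iff.1 (ConjClasses.mk_eq_mk_iff_isConj.1 hx).symm
      rw [← hg, roots, roots, GS.FrobeniusCount.card_centralizer_roots_conj]
  rw [Finset.sum_congr rfl hclass, ← Finset.mul_sum] at heq
  refine Nat.eq_of_mul_eq_mul_left hm ?_
  rw [← heq, mul_comm, card_mul_index]

variable (hmin : ∀ r : ℕ, r.Prime → r ∣ Nat.card G → p ≤ r)

/-- The automorphism of a Sylow subgroup induced by `z` moves a large part of its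
abelianization. -/
theorem sq_dvd_range (S : Type*) [Group S] [Finite S] (hS : IsPGroup p S) (σ : MulAut S)
    (q : ℕ) [hq : Fact q.Prime] (hpq : p < q) (hσq : σ ^ q = 1) (hσ : σ ≠ 1) :
    p ^ 2 * Nat.card {s : S // Abelianization.of (σ s) = Abelianization.of s} ≤ Nat.card S := by
  classical
  set A := Abelianization S
  let φ : S →* A :=
    { toFun := fun s => Abelianization.of (σ s) / Abelianization.of s
      map_one' := by simp
      map_mul' := fun a b => by rw [map_mul, map_mul, map_mul, mul_div_mul_comm] }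
  have hker : Nat.card {s : S // Abelianization.of (σ s) = Abelianization.of s} = Nat.card φ.ker :=
    Nat.card_congr (Equiv.subtypeEquivRight fun s => by
      rw [MonoidHom.mem_ker]; exact div_eq_one.symm)
  have hmul : Nat.card φ.ker * Nat.card φ.range = Nat.card S := by
    rw [← index_ker, card_mul_index]
  have hcop : ¬ q ∣ p := fun h => absurd ((Nat.prime_dvd_prime_iff_eq hq.out hp.out).1 h) hpq.ne'
  have hiter : ∀ (n : ℕ) (s : S), (fun s => σ s)^[n] s = (σ ^ n) s := by
    intro n
    induction n with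
    | zero => intro s; simp
    | succ n ih => intro s; rw [Function.iterate_succ_apply', ih, pow_succ', MulAut.mul_apply]
  -- `φ` is not trivial
  have hne : φ.range ≠ ⊥ := by
    intro hbot
    apply hσ
    let D : Subgroup S :=
      { carrier := {s | σ s = s}
        one_mem' := map_one σ
        mul_mem' := fun {a b} ha hb => by
          show σ (a * b) = a * b
          rw [map_mul, show σ a = a from ha, show σ b = b from hb]
        inv_mem' := fun {a} ha => by
          show σ a⁻¹ = a⁻¹
          rw [map_inv, show σ a = a from ha] }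
    have hDtop : D ⊔ frattini S = ⊤ := by
      rw [eq_top_iff]
      intro s _
      have hinv : ∀ y : S, Abelianization.of (σ y) = Abelianization.of y := fun y => by
        have : φ y ∈ φ.range := ⟨y, rfl⟩
        rw [hbot, mem_bot] at this
        exact div_eq_one.1 this
      let X := {y : S // Abelianization.of y = Abelianization.of s}
      let f : X → X := fun y => ⟨σ y.1, (hinv y.1).trans y.2⟩
      have hf : f^[q] = id := by
        funext y
        apply Subtype.ext
        have h1 : ∀ n, ((f^[n] y).1 : S) = (σ ^ n) y.1 := by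
          intro n
          induction n with
          | zero => simp
          | succ n ih => rw [Function.iterate_succ_apply', pow_succ', MulAut.mul_apply, ← ih]
        rw [h1, hσq]
        rfl
      have hX : Nat.card X = Nat.card (Abelianization.of (G := S)).ker := by
        refine Nat.card_congr
          { toFun := fun y => ⟨s⁻¹ * y.1, by
              rw [MonoidHom.mem_ker, map_mul, map_inv, y.2, inv_mul_cancel]⟩
            invFun := fun k => ⟨s * k.1, by rw [map_mul, MonoidHom.mem_ker.1 k.2, mul_one]⟩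
            left_inv := fun y => Subtype.ext (mul_inv_cancel_left _ _)
            right_inv := fun k => Subtype.ext (inv_mul_cancel_left _ _) }
      have hfix := fixed_modEq f q hf
      have hne0 : Nat.card {y : X // f y = y} ≠ 0 := by
        intro h0
        rw [h0, Nat.modEq_zero_iff_dvd, hX] at hfix
        obtain ⟨i, hi⟩ := IsPGroup.iff_card.1 (hS.to_subgroup (Abelianization.of (G := S)).ker)
        rw [hi] at hfix
        exact hcop (hq.out.dvd_of_dvd_pow hfix)
      obtain ⟨⟨y, hy⟩⟩ := (Nat.card_ne_zero.1 hne0).1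
      have hyD : (y.1 : S) ∈ D := congrArg Subtype.val hy
      have hcom : (y.1)⁻¹ * s ∈ frattini S := by
        refine Transfer.commutator_le_frattini hS ?_
        rw [← Abelianization.ker_of, MonoidHom.mem_ker, map_mul, map_inv, y.2, inv_mul_cancel]
      rw [← mul_inv_cancel_left y.1 s]
      exact mul_mem (mem_sup_left hyD) (mem_sup_right hcom)
    have hD := frattini_nongenerating hDtop
    ext s
    have : s ∈ D := hD ▸ mem_top s
    exact this
  -- no nontrivial fixed point on the range
  let σA : A →* A := Abelianization.map σ.toMonoidHom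
  have hσA : ∀ s : S, σA (Abelianization.of s) = Abelianization.of (σ s) := fun s =>
    Abelianization.map_of _ s
  have hAiter : ∀ (n : ℕ) (s : S), σA^[n] (Abelianization.of s) = Abelianization.of ((σ ^ n) s) := by
    intro n
    induction n with
    | zero => intro s; simp
    | succ n ih => intro s; rw [Function.iterate_succ_apply', ih, hσA, pow_succ', MulAut.mul_apply]
  let g : φ.range → φ.range := fun b => ⟨σA b.1, by
    obtain ⟨s, hs⟩ := b.2
    exact ⟨σ s, by rw [← hs]; show _ / _ = σA (_ / _); rw [map_div, hσA, hσA]⟩⟩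
  have hgq : g^[q] = id := by
    funext b
    apply Subtype.ext
    have h1 : ∀ n, ((g^[n] b).1 : A) = σA^[n] b.1 := by
      intro n
      induction n with
      | zero => rfl
      | succ n ih => rw [Function.iterate_succ_apply', Function.iterate_succ_apply', ← ih]
    rw [h1]
    obtain ⟨s, hs⟩ := b.2
    obtain ⟨y, hy⟩ := Quotient.exists_rep b.1
    have hy' : Abelianization.of y = b.1 := hy
    rw [← hy', hAiter, hσq, MulAut.one_apply, hy']
    rfl
  have hfix1 : Nat.card {b : φ.range // g b = b} = 1 := by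
    rw [Nat.card_eq_one_iff_unique]
    refine ⟨⟨fun b c => ?_⟩, ⟨⟨1, Subtype.ext (map_one σA)⟩⟩⟩
    suffices ∀ d : {b : φ.range // g b = b}, d.1 = 1 by
      exact Subtype.ext ((this b).trans (this c).symm)
    rintro ⟨⟨d, s, hs⟩, hd⟩
    have hd' : σA d = d := congrArg Subtype.val hd
    have hs' : Abelianization.of (σ s) = Abelianization.of s * d := by
      rw [← hs]
      show _ = Abelianization.of s * (Abelianization.of (σ s) / Abelianization.of s)
      rw [mul_div_cancel]
    have hn : ∀ n, Abelianization.of ((σ ^ n) s) = Abelianization.of s * d ^ n := by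
      intro n
      induction n with
      | zero => simp
      | succ n ih =>
        rw [pow_succ', MulAut.mul_apply, ← hσA, ih, map_mul, map_pow, hσA, hd', hs', pow_succ',
          mul_assoc]
    have hdq := hn q
    rw [hσq, MulAut.one_apply, left_eq_mul, ← orderOf_dvd_iff_pow_eq_one] at hdq
    obtain ⟨i, hi⟩ := IsPGroup.iff_card.1 (hS.of_surjective Abelianization.of
      (fun a => Quotient.exists_rep a))
    have hdp : orderOf d ∣ p ^ i := hi ▸ orderOf_dvd_natCard d
    apply Subtype.ext
    exact orderOf_eq_one_iff.1 (Nat.eq_one_of_dvd_coprimes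
      (Nat.Coprime.pow_right i ((Nat.coprime_primes hq.out hp.out).2 hpq.ne')) hdq hdp)
  have hmod := fixed_modEq g q hgq
  rw [hfix1] at hmod
  obtain ⟨i, hi⟩ := IsPGroup.iff_card.1
    ((hS.of_surjective Abelianization.of (fun a => Quotient.exists_rep a)).to_subgroup φ.range)
  rw [hi] at hmod
  have hi2 : 2 ≤ i := by
    rcases i with _ | _ | i
    · exact absurd (Subgroup.eq_bot_of_card_eq _ (by simpa using hi)) hne
    · exfalso
      rw [pow_one] at hmod
      have := Nat.ModEq.eq_of_lt_of_lt hmod hpq hq.out.one_lt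
      exact hp.out.ne_one this
    · omega
  rw [hker, ← hmul, hi, mul_comm]
  exact Nat.mul_le_mul_left _ (Nat.pow_le_pow_right hp.out.pos hi2)

include hG hmin in
/-- The normalizer of a Sylow subgroup induces only inner automorphisms. -/
theorem normalizer_eq : ∀ x ∈ normalizer ((T : Subgroup G) : Set G),
    ∃ t ∈ (T : Subgroup G), t⁻¹ * x ∈ centralizer ((T : Subgroup G) : Set G) := by
  classical
  have := Fintype.ofFinite G
  set N := normalizer ((T : Subgroup G) : Set G)
  set A := Nat.card (T : Subgroup G) with hA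
  set m := (T : Subgroup G).index
  intro x hx
  have hcop : Nat.Coprime A m := coprime_card_index T
  obtain ⟨e, he1, he0⟩ := Nat.chineseRemainder hcop 1 0
  obtain ⟨f, hf0, hf1⟩ := Nat.chineseRemainder hcop 0 1
  have hxG : x ^ (A * m) = 1 := by rw [card_mul_index]; exact pow_card_eq_one'
  have hsplit : x ^ e * x ^ f = x := by
    rw [← pow_add]
    conv_rhs => rw [← pow_one x]
    rw [pow_eq_pow_mod _ hxG, pow_eq_pow_mod 1 hxG]
    congr 1
    exact (Nat.modEq_and_modEq_iff_modEq_mul hcop).1
      ⟨by simpa using he1.add hf0, by simpa using he0.add hf1⟩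
  have hxeT : x ^ e ∈ (T : Subgroup G) := by
    have hpg : IsPGroup p (zpowers (x ^ e)) := by
      obtain ⟨a, ha⟩ := IsPGroup.iff_card.1 T.2
      have h4 : orderOf (x ^ e) ∣ p ^ a := by
        rw [← ha, orderOf_dvd_iff_pow_eq_one, ← pow_mul, ← orderOf_dvd_iff_pow_eq_one, mul_comm]
        exact (orderOf_dvd_of_pow_eq_one hxG).trans
          (Nat.mul_dvd_mul_left A (Nat.modEq_zero_iff_dvd.1 he0))
      obtain ⟨i, -, hi⟩ := (Nat.dvd_prime_pow hp.out).1 h4
      exact IsPGroup.of_card (n := i) (by rw [Nat.card_zpowers, hi])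
    have hsup := IsPGroup.to_sup_of_normal_left' T.2 hpg (zpowers_le.2 (pow_mem hx e))
    exact (T.3 hsup le_sup_left) ▸ mem_sup_right (mem_zpowers _)
  refine ⟨x ^ e, hxeT, ?_⟩
  have hxf : (x ^ e)⁻¹ * x = x ^ f := by rw [inv_mul_eq_iff_eq_mul]; exact hsplit.symm
  rw [hxf]
  by_contra hy
  -- replace `x ^ f` by a power inducing an automorphism of prime order
  set y : N := ⟨x ^ f, pow_mem hx f⟩ with hydef
  set ρ := (T : Subgroup G).normalizerMonoidHom
  have hρ : ∀ z : N, ρ z = 1 ↔ (z : G) ∈ centralizer ((T : Subgroup G) : Set G) := fun z => by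
    rw [← MonoidHom.mem_ker, normalizerMonoidHom_ker, mem_subgroupOf]
  have hρy : ρ y ≠ 1 := fun h => hy ((hρ y).1 h)
  obtain ⟨q, hqp, hqd⟩ := Nat.exists_prime_and_dvd (n := orderOf (ρ y))
    (by simpa using hρy)
  have hyo : orderOf (ρ y) ∣ m := by
    refine (orderOf_map_dvd ρ y).trans ?_
    rw [← orderOf_coe, orderOf_dvd_iff_pow_eq_one]
    show (x ^ f) ^ m = 1
    rw [← pow_mul, ← orderOf_dvd_iff_pow_eq_one]
    exact (orderOf_dvd_of_pow_eq_one hxG).trans
      (Nat.mul_dvd_mul_right (Nat.modEq_zero_iff_dvd.1 hf0) m)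
  have hpq : p < q := by
    refine lt_of_le_of_ne (hmin q hqp ((hqd.trans hyo).trans (index_dvd_card _))) ?_
    rintro rfl
    exact T.not_dvd_index (hqd.trans hyo)
  have : Fact q.Prime := ⟨hqp⟩
  obtain ⟨z, hzq, hz1⟩ : ∃ z : N, ρ z ^ q = 1 ∧ ρ z ≠ 1 := by
    refine ⟨y ^ (orderOf (ρ y) / q), ?_, ?_⟩
    · rw [map_pow, ← pow_mul, Nat.div_mul_cancel hqd, pow_orderOf_eq_one]
    · rw [map_pow, Ne, ← orderOf_dvd_iff_pow_eq_one]
      intro hd
      have h0 : 0 < orderOf (ρ y) := orderOf_pos _
      have h1 : 0 < orderOf (ρ y) / q := Nat.div_pos (Nat.le_of_dvd h0 hqd) hqp.pos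
      have h2 := Nat.le_of_dvd h1 hd
      have h3 := Nat.div_lt_self h0 hqp.one_lt
      omega
  -- the elements of `T` whose class is fixed by `z`
  set F := Finset.univ.filter fun t : G =>
    t ∈ (T : Subgroup G) ∧ (z : G) * t * (z : G)⁻¹ ∈ orb T t with hF
  have hFle : p ^ 2 * F.card ≤ A := by
    refine le_trans (Nat.mul_le_mul_left _ ?_)
      (sq_dvd_range (T : Subgroup G) T.2 (ρ z) q hpq hzq hz1)
    rw [Nat.card_eq_fintype_card, Fintype.card_subtype]
    refine Finset.card_le_card_of_injOn
      (fun t => if h : t ∈ (T : Subgroup G) then (⟨t, h⟩ : ↥(T : Subgroup G)) else 1) ?_ ?_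
    · intro t ht
      simp only [hF, Finset.coe_filter, Finset.mem_univ, true_and, Set.mem_setOf_eq] at ht
      simp only [Finset.coe_filter, Finset.mem_univ, true_and, Set.mem_setOf_eq, dif_pos ht.1]
      obtain ⟨s, hs, hst⟩ := (mem_orb T).1 ht.2
      have e1 : ρ z ⟨t, ht.1⟩ = (⟨s, hs⟩ : ↥(T : Subgroup G)) * ⟨t, ht.1⟩ * ⟨s, hs⟩⁻¹ :=
        Subtype.ext hst.symm
      rw [e1, map_mul, map_mul, map_inv, mul_comm, ← mul_assoc, inv_mul_cancel, one_mul]
    · intro a ha b hb hab
      simp only [hF, Finset.coe_filter, Finset.mem_univ, true_and, Set.mem_setOf_eq] at ha hb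
      simp only [dif_pos ha.1, dif_pos hb.1] at hab
      exact congrArg Subtype.val hab
  -- each class
  have hclass : ∀ c ∈ classes T, q * wt T c.out ≤
      (inT T c).card + (q - 1) * ((inT T c).filter fun t => t ∈ F).card := by
    intro c hc
    by_cases hall : ∀ t ∈ inT T c, t ∈ F
    · rw [Finset.filter_true_of_mem hall]
      obtain ⟨t, ht, rfl⟩ := exists_rep T hc
      rw [(wt_out T rfl).1]
      have hle : wt T t ≤ (inT T (ConjClasses.mk t)).card :=
        (wt_le_card_orb T ht).trans (Finset.card_le_card (orb_subset T ht))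
      have hq1 : q = (q - 1) + 1 := (Nat.succ_pred_eq_of_pos hqp.pos).symm
      calc q * wt T t ≤ q * (inT T (ConjClasses.mk t)).card := Nat.mul_le_mul_left _ hle
        _ = _ := by conv_lhs => rw [hq1]
                    ring
    · push Not at hall
      obtain ⟨t, htc, htF⟩ := hall
      simp only [inT, Finset.mem_filter, Finset.mem_univ, true_and] at htc
      obtain ⟨ht, rfl⟩ := htc
      rw [(wt_out T rfl).1]
      refine le_trans ?_ (Nat.le_add_right _ _)
      refine le_trans (Nat.mul_le_mul_left _ (wt_le_card_orb T ht)) ?_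
      let S : Subgroup G :=
        { carrier := {g | g ∈ N ∧ ∃ s ∈ (T : Subgroup G), s * t * s⁻¹ = g * t * g⁻¹}
          one_mem' := ⟨one_mem _, 1, one_mem _, rfl⟩
          mul_mem' := by
            rintro a b ⟨haN, s, hs, hsa⟩ ⟨hbN, r, hr, hrb⟩
            refine ⟨mul_mem haN hbN, a * r * a⁻¹ * s, mul_mem ((mem_normalizer_iff.1 haN r).1 hr) hs, ?_⟩
            calc a * r * a⁻¹ * s * t * (a * r * a⁻¹ * s)⁻¹
                = a * r * a⁻¹ * (s * t * s⁻¹) * a * r⁻¹ * a⁻¹ := by group
              _ = a * (r * t * r⁻¹) * a⁻¹ := by rw [hsa]; group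
              _ = a * b * t * (a * b)⁻¹ := by rw [hrb]; group
          inv_mem' := by
            rintro a ⟨haN, s, hs, hsa⟩
            refine ⟨inv_mem haN, a⁻¹ * s⁻¹ * a,
              by simpa using (mem_normalizer_iff.1 (inv_mem haN) s⁻¹).1 (inv_mem hs), ?_⟩
            calc a⁻¹ * s⁻¹ * a * t * (a⁻¹ * s⁻¹ * a)⁻¹
                = a⁻¹ * s⁻¹ * (a * t * a⁻¹) * s * a := by group
              _ = a⁻¹ * t * a⁻¹⁻¹ := by rw [← hsa]; group }
      have hzS : (z : G) ∉ S := by
        rintro ⟨-, s, hs, hst⟩
        exact htF (by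
          simp only [hF, Finset.mem_filter, Finset.mem_univ, true_and]
          exact ⟨ht, (mem_orb T).2 ⟨s, hs, hst⟩⟩)
      have hzqS : (z : G) ^ q ∈ S := by
        have hc1 : ((z ^ q : N) : G) ∈ centralizer ((T : Subgroup G) : Set G) :=
          (hρ _).1 (by rw [map_pow, hzq])
        rw [mem_centralizer_iff] at hc1
        refine ⟨pow_mem z.2 q, 1, one_mem _, ?_⟩
        have := hc1 t ht
        rw [SubgroupClass.coe_pow] at this
        rw [one_mul, inv_one, mul_one, ← this, mul_inv_cancel_right]
      have hpowS : ∀ k : ℕ, k < q → (z : G) ^ k ∈ S → k = 0 := by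
        intro k hk hkS
        by_contra hk0
        have hg : Nat.gcd k q = 1 := Nat.Coprime.symm
          (hqp.coprime_iff_not_dvd.2 fun hd =>
            absurd (Nat.le_of_dvd (Nat.pos_of_ne_zero hk0) hd) (not_le.2 hk))
        apply hzS
        have hbez := Nat.gcd_eq_gcd_ab k q
        rw [hg, Nat.cast_one] at hbez
        rw [← zpow_one (z : G), hbez, zpow_add, zpow_mul, zpow_mul, zpow_natCast, zpow_natCast]
        exact mul_mem (zpow_mem hkS _) (zpow_mem hzqS _)
      have hN' : ∀ i : ℕ, (z : G) ^ i ∈ N := fun i => pow_mem z.2 i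
      rw [show q * (orb T t).card = ((Finset.range q) ×ˢ (orb T t)).card by
        rw [Finset.card_product, Finset.card_range]]
      refine Finset.card_le_card_of_injOn
        (fun iy => (z : G) ^ iy.1 * iy.2 * ((z : G) ^ iy.1)⁻¹) ?_ ?_
      · intro iy hiy
        simp only [Finset.coe_product, Set.mem_prod, Finset.mem_coe] at hiy
        have hy := orb_subset T ht hiy.2
        simp only [inT, Finset.mem_filter, Finset.mem_univ, true_and] at hy
        simp only [inT, Finset.coe_filter, Finset.mem_univ, true_and, Set.mem_setOf_eq]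
        refine ⟨(mem_normalizer_iff.1 (hN' iy.1) iy.2).1 hy.1, ?_⟩
        rw [← hy.2]
        exact ConjClasses.mk_eq_mk_iff_isConj.2 (isConj_iff.2 ⟨((z : G) ^ iy.1)⁻¹, by group⟩)
      · -- injectivity
        suffices key : ∀ i j : ℕ, i ≤ j → j < q → ∀ y ∈ orb T t, ∀ y' ∈ orb T t,
            (z : G) ^ i * y * ((z : G) ^ i)⁻¹ = (z : G) ^ j * y' * ((z : G) ^ j)⁻¹ →
              i = j ∧ y = y' by
          intro a ha b hb hab
          simp only [Finset.coe_product, Set.mem_prod, Finset.mem_coe, Finset.mem_range] at ha hb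
          rcases le_total a.1 b.1 with hle | hle
          · obtain ⟨h1, h2⟩ := key _ _ hle hb.1 _ ha.2 _ hb.2 hab
            exact Prod.ext h1 h2
          · obtain ⟨h1, h2⟩ := key _ _ hle ha.1 _ hb.2 _ ha.2 hab.symm
            exact Prod.ext h1.symm h2.symm
        intro i j hij hj y hy y' hy' heq
        obtain ⟨k, rfl⟩ := Nat.exists_eq_add_of_le hij
        have heq' : y = (z : G) ^ k * y' * ((z : G) ^ k)⁻¹ := by
          rw [pow_add] at heq
          have := congrArg (fun w => ((z : G) ^ i)⁻¹ * w * (z : G) ^ i) heq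
          simpa [mul_assoc] using this
        obtain ⟨s, hs, rfl⟩ := (mem_orb T).1 hy
        obtain ⟨r, hr, rfl⟩ := (mem_orb T).1 hy'
        have hkS : (z : G) ^ k ∈ S := by
          refine ⟨hN' k, (z : G) ^ k * r⁻¹ * ((z : G) ^ k)⁻¹ * s,
            mul_mem ((mem_normalizer_iff.1 (hN' k) r⁻¹).1 (inv_mem hr)) hs, ?_⟩
          calc (z : G) ^ k * r⁻¹ * ((z : G) ^ k)⁻¹ * s * t *
                ((z : G) ^ k * r⁻¹ * ((z : G) ^ k)⁻¹ * s)⁻¹
              = (z : G) ^ k * r⁻¹ * ((z : G) ^ k)⁻¹ * (s * t * s⁻¹) * (z : G) ^ k * r *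
                  ((z : G) ^ k)⁻¹ := by group
            _ = (z : G) ^ k * t * ((z : G) ^ k)⁻¹ := by rw [heq']; group
        have hk0 := hpowS k (by omega) hkS
        subst hk0
        exact ⟨rfl, by simpa using heq'⟩
  -- summing
  have hs1 := Finset.sum_le_sum hclass
  rw [Finset.sum_add_distrib, sum_card_inT, ← Finset.mul_sum, ← Finset.mul_sum] at hs1
  have hFsum : ∑ c ∈ classes T, ((inT T c).filter fun t => t ∈ F).card = F.card := by
    rw [Finset.card_eq_sum_card_fiberwise (f := ConjClasses.mk) (t := classes T) (s := F)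
      (fun t ht => by
        simp only [hF, Finset.coe_filter, Finset.mem_univ, true_and, Set.mem_setOf_eq] at ht
        exact Finset.mem_image.2 ⟨t, by simp [ht.1], rfl⟩)]
    refine Finset.sum_congr rfl fun c _ => ?_
    congr 1
    ext y
    simp [inT, hF]
    tauto
  rw [hFsum] at hs1
  have hv : A + ∑ c ∈ classes T, wt T c.out ≤ p * ∑ c ∈ classes T, wt T c.out := by
    rw [hA, ← sum_val T hG, ← Finset.sum_add_distrib, Finset.mul_sum]
    refine Finset.sum_le_sum fun c hc => ?_
    obtain ⟨t, ht, rfl⟩ := exists_rep T hc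
    rw [(wt_out T rfl).1, (wt_out T rfl).2]
    refine (val_bounds T hG t ?_).2.1
    have := pow_card_eq_one' (x := (⟨t, ht⟩ : ↥(T : Subgroup G)))
    exact congrArg Subtype.val this
  set W := ∑ c ∈ classes T, wt T c.out
  have hA0 : 0 < A := Nat.card_pos
  obtain ⟨d, rfl⟩ := Nat.exists_eq_add_of_lt hpq
  obtain ⟨r, rfl⟩ : ∃ r, p = r + 2 := ⟨p - 2, by have := hp.out.two_le; omega⟩
  have h5 : r + 2 + d + 1 - 1 = r + 2 + d := by omega
  rw [h5] at hs1
  have h6 : A ≤ (r + 1) * W := by nlinarith [hv]
  have h7 : (r + 2 + d + 1) * A ≤ (r + 1) * (A + (r + 2 + d) * F.card) := by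
    calc (r + 2 + d + 1) * A ≤ (r + 2 + d + 1) * ((r + 1) * W) := Nat.mul_le_mul_left _ h6
      _ = (r + 1) * ((r + 2 + d + 1) * W) := by ring
      _ ≤ _ := Nat.mul_le_mul_left _ hs1
  have h8 : (r + 2) ^ 2 * ((r + 1) * ((r + 2 + d) * F.card)) ≤ (r + 1) * ((r + 2 + d) * A) := by
    calc _ = (r + 1) * ((r + 2 + d) * ((r + 2) ^ 2 * F.card)) := by ring
      _ ≤ _ := Nat.mul_le_mul_left _ (Nat.mul_le_mul_left _ hFle)
  have h9 : (r + 2) ^ 2 * ((r + 2 + d + 1) * A) ≤
      (r + 2) ^ 2 * ((r + 1) * A) + (r + 1) * ((r + 2 + d) * A) := by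
    calc _ ≤ (r + 2) ^ 2 * ((r + 1) * (A + (r + 2 + d) * F.card)) := Nat.mul_le_mul_left _ h7
      _ = (r + 2) ^ 2 * ((r + 1) * A) + (r + 2) ^ 2 * ((r + 1) * ((r + 2 + d) * F.card)) := by ring
      _ ≤ _ := Nat.add_le_add_left h8 _
  have h10 : (r + 2) ^ 2 * (r + 2 + d + 1) ≤ (r + 2) ^ 2 * (r + 1) + (r + 1) * (r + 2 + d) := by
    refine Nat.le_of_mul_le_mul_right ?_ hA0
    calc (r + 2) ^ 2 * (r + 2 + d + 1) * A = (r + 2) ^ 2 * ((r + 2 + d + 1) * A) := by ring
      _ ≤ _ := h9
      _ = _ := by ring
  have e1 : r + 2 + d < (r + 2) * (2 + d) := by nlinarith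
  have e2 : (r + 2) * (r + 2 + d) < (r + 2) * ((r + 2) * (2 + d)) :=
    Nat.mul_lt_mul_of_pos_left e1 (by omega)
  nlinarith [h10, e2]

include hG hmin in
/-- A Sylow `p`-subgroup controls the fusion of its elements. -/
theorem controlsFusion : Transfer.ControlsFusion (T : Subgroup G) (T : Subgroup G) := by
  classical
  have := Fintype.ofFinite G
  have hG' : ∀ T' : Sylow p G, ∀ g : G,
      Nat.card (T' : Subgroup G) ∣ p * Nat.card (centralizer ({g} : Set G)) := fun T' g => by
    rw [T'.card_eq_multiplicity, ← T.card_eq_multiplicity]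
    exact hG g
  have hN := fun T' : Sylow p G => normalizer_eq T' (hG' T') hmin
  have hle : ∀ c ∈ classes T, wt T c.out ≤ (inT T c).card := by
    intro c hc
    obtain ⟨t, ht, rfl⟩ := exists_rep T hc
    rw [(wt_out T rfl).1]
    exact (wt_le_card_orb T ht).trans (Finset.card_le_card (orb_subset T ht))
  have hsum : ∑ c ∈ classes T, wt T c.out = ∑ c ∈ classes T, (inT T c).card := by
    rw [sum_card_inT, ← sum_val T hG]
    refine Finset.sum_congr rfl fun c hc => ?_
    obtain ⟨t, ht, rfl⟩ := exists_rep T hc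
    rw [(wt_out T rfl).1, (wt_out T rfl).2]
    refine ((val_bounds T hG t ?_).2.2 hN).symm
    have := pow_card_eq_one' (x := (⟨t, ht⟩ : ↥(T : Subgroup G)))
    exact congrArg Subtype.val this
  have heq := (Finset.sum_eq_sum_iff_of_le hle).1 hsum
  intro x hx g hgx
  have hc : ConjClasses.mk x ∈ classes T := Finset.mem_image.2 ⟨x, by simp [hx], rfl⟩
  have h1 := heq _ hc
  rw [(wt_out T rfl).1] at h1
  have hsub := orb_subset T hx
  have heq2 : orb T x = inT T (ConjClasses.mk x) :=
    Finset.eq_of_subset_of_card_le hsub (h1 ▸ wt_le_card_orb T hx)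
  have hmem : g * x * g⁻¹ ∈ orb T x := by
    rw [heq2]
    simp only [inT, Finset.mem_filter, Finset.mem_univ, true_and]
    exact ⟨hgx, ConjClasses.mk_eq_mk_iff_isConj.2 (isConj_iff.2 ⟨g⁻¹, by group⟩)⟩
  exact (mem_orb T).1 hmem

end Main

end Cfsg.Agent.Lib.ClassSize.SquareFreeFusion
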